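import Cfsg.Agent.HKS.LinTriv
import Cfsg.Agent.Classification.TypeZIV.Parity
import Cfsg.Agent.CharDeep.DegreeBound
import Cfsg.Agent.H710.Cuspidal

/-!
# S4816, RIM-L-OWN for `PSU₃(q)`: the abstract part (helper497)

`G` of rank one (`RankOne B Q D W w`), `Q` of order `q ^ 3` with "Heisenberg" centre `Z₀` of order `q`, `K ≤ D` central,
`|D : K| = (q ^ 2 - 1) / 3`, `D / K` acts fixed point freely on `Q / Z₀`, `lam` a `w`-invariant linear character of `D`:
one of the two constituents of the induced character has degree divisible by `p` (`q` a power of `p`, `q > 4`).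

Otherwise both degrees divide `(|Q| + 1) |Q|` (integrality of the central character at the sum of the conjugates of `Q`),
so both are `(q ^ 3 + 1) / 2`; but the dimension of the fixed space of `Z₀` is `1 + B (q ^ 2 - 1) / 3`, `0 ≤ B ≤ 3`, and
congruent to the degree modulo `q`.
-/

set_option autoImplicit false
set_option linter.unusedSectionVars false

namespace Cfsg.Agent.H497.RIM.Own

open Cfsg Cfsg.Agent.Characters.Core Cfsg.Agent.HKS
open scoped ComplexConjugate

/-! ### Heisenberg groups -/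

section heis

variable {P : Type*} [Group P] [Finite P] {q : ℕ} {Z : Subgroup P} [Fintype Z]

theorem heis_irr (hP : Nat.card P = q ^ 3) (hq : 0 < q) (hZ : Nat.card Z = q) (hZc : Z ≤ Subgroup.center P)
    (hcomm : ∀ u : P, u ∉ Z → ∀ z ∈ Z, ∃ v, v * u * v⁻¹ = u * z) {θ : P → ℂ} (hθ : IsIrrCharacter P θ) :
    ∃ k : ℕ, (q : ℂ) * θ 1 - ∑ z : Z, θ z = (q : ℂ) ^ 2 * k := by
  classical
  have := Fintype.ofFinite P
  choose ω hω1 hω using fun z : Z => Cfsg.Agent.CharDeep.DegreeBound.exists_omega hθ (hZc z.2)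
  have hz : ∀ z : Z, θ z = ω z * θ 1 := fun z => by
    have := hω z 1
    rwa [one_mul] at this
  by_cases hall : ∀ z : Z, ω z = 1
  · refine ⟨0, ?_⟩
    rw [Finset.sum_congr rfl (g := fun _ => θ 1) fun z _ => by rw [hz, hall, one_mul], Finset.sum_const,
      Finset.card_univ, ← Nat.card_eq_fintype_card, hZ, nsmul_eq_mul]
    push_cast
    ring
  · push Not at hall
    obtain ⟨z0, hz0⟩ := hall
    have hz0' : (1 - ω z0) ≠ 0 := sub_ne_zero.2 (Ne.symm hz0)
    have h1 : ∑ z : Z, θ z = 0 := by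
      have h2 : ∑ z : Z, θ z = ω z0 * ∑ z : Z, θ z := by
        conv_lhs => rw [← Fintype.sum_equiv (Equiv.mulRight z0) (fun z : Z => θ ((z * z0 : Z) : P))
          (fun z : Z => θ z) (fun z => rfl)]
        rw [Finset.mul_sum]
        exact Finset.sum_congr rfl fun z _ => hω z0 z
      have h3 : (1 - ω z0) * ∑ z : Z, θ z = 0 := by linear_combination h2
      exact (mul_eq_zero.1 h3).resolve_left hz0'
    have h2 : ∀ u : P, u ∉ Z → θ u = 0 := by
      intro u hu
      obtain ⟨v, hv⟩ := hcomm u hu z0 z0.2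
      have h3 : θ (v * u * v⁻¹) = θ u := isIrr_isClassFunction hθ u v
      rw [hv, hω z0] at h3
      have h4 : (1 - ω z0) * θ u = 0 := by linear_combination -h3
      exact (mul_eq_zero.1 h4).resolve_left hz0'
    have h3 : ∑ u : P, θ u * conj (θ u) = (Nat.card P : ℂ) := by
      have := classInner_irr_self hθ
      rw [classInner_def, inv_mul_eq_iff_eq_mul₀ card_ne_zero_complex, mul_one] at this
      exact this
    have h4 : ∑ z : Z, θ z * conj (θ z) = ∑ u : P, θ u * conj (θ u) :=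
      Fintype.sum_of_injective (Subtype.val : Z → P) Subtype.val_injective _ _ (fun u hu => by
        rw [h2 u (fun h => hu ⟨⟨u, h⟩, rfl⟩), zero_mul]) (fun z => rfl)
    have h5 : ∀ z ∈ (Finset.univ : Finset Z), θ z * conj (θ z) = θ 1 * conj (θ 1) := by
      intro z _
      rw [hz z, map_mul]
      have : ω z * conj (ω z) = 1 := by
        rw [Complex.mul_conj, Complex.normSq_eq_norm_sq, hω1 z]
        norm_num
      calc _ = (ω z * conj (ω z)) * (θ 1 * conj (θ 1)) := by ring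
        _ = _ := by rw [this, one_mul]
    rw [← h4, Finset.sum_congr rfl h5, Finset.sum_const, Finset.card_univ, ← Nat.card_eq_fintype_card, hZ, hP,
      nsmul_eq_mul, Cfsg.Agent.Blocks.Basic.irr_one_eq_charDegree hθ, Complex.conj_natCast] at h3
    have h6 : q * (charDegree θ * charDegree θ) = q ^ 3 := by exact_mod_cast h3
    have h7 : charDegree θ * charDegree θ = q * q :=
      Nat.eq_of_mul_eq_mul_left hq (h6.trans (by ring))
    have h8 : charDegree θ = q := Nat.mul_self_inj.1 h7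
    refine ⟨1, ?_⟩
    rw [h1, Cfsg.Agent.Blocks.Basic.irr_one_eq_charDegree hθ, h8]
    push_cast
    ring

/-- `q` divides the dimension of the part without fixed vectors of the centre. -/
theorem heis (hP : Nat.card P = q ^ 3) (hq : 0 < q) (hZ : Nat.card Z = q) (hZc : Z ≤ Subgroup.center P)
    (hcomm : ∀ u : P, u ∉ Z → ∀ z ∈ Z, ∃ v, v * u * v⁻¹ = u * z) {ψ : P → ℂ} (hψ : IsCharacter P ψ) :
    ∃ k : ℕ, (q : ℂ) * ψ 1 - ∑ z : Z, ψ z = (q : ℂ) ^ 2 * k := by
  classical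
  have := finite_irr (G := P)
  have := Fintype.ofFinite (IrrCharacter P)
  obtain ⟨m, rfl⟩ := exists_nat_comb hψ
  choose k hk using fun θ : IrrCharacter P => heis_irr hP hq hZ hZc hcomm θ.2
  refine ⟨∑ θ : IrrCharacter P, m θ * k θ, ?_⟩
  simp only [Finset.sum_apply, Pi.smul_apply]
  simp only [nsmul_eq_mul]
  rw [Finset.sum_comm]
  push_cast
  rw [Finset.mul_sum, Finset.mul_sum, ← Finset.sum_sub_distrib]
  refine Finset.sum_congr rfl fun θ _ => ?_
  rw [← Finset.mul_sum]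
  linear_combination (m θ : ℂ) * hk θ

end heis

/-! ### Multiplicities of linear characters -/

section mult

variable {G : Type*} [Group G]

/-- the action of `D` on `N` -/
def act (D N : Subgroup G) (hDN : ∀ d ∈ D, ∀ n ∈ N, d * n * d⁻¹ ∈ N) : D →* MulAut N where
  toFun d :=
    { toFun := fun n => ⟨d * n * (d : G)⁻¹, hDN d d.2 n n.2⟩
      invFun := fun n => ⟨(d : G)⁻¹ * n * d, by
        have := hDN (d : G)⁻¹ (D.inv_mem d.2) n n.2
        rwa [inv_inv] at this⟩
      left_inv := fun n => Subtype.ext (by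
        show (d : G)⁻¹ * ((d : G) * n * (d : G)⁻¹) * d = n
        group)
      right_inv := fun n => Subtype.ext (by
        show (d : G) * ((d : G)⁻¹ * n * d) * (d : G)⁻¹ = n
        group)
      map_mul' := fun a b => Subtype.ext (by
        show (d : G) * ((a : G) * b) * (d : G)⁻¹ = (d : G) * a * (d : G)⁻¹ * ((d : G) * b * (d : G)⁻¹)
        group) }
  map_one' := MulEquiv.ext fun n => Subtype.ext (by
    show (1 : G) * n * (1 : G)⁻¹ = n
    group)
  map_mul' a b := MulEquiv.ext fun n => Subtype.ext (by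
    show ((a : G) * b) * n * ((a : G) * b)⁻¹ = (a : G) * ((b : G) * n * (b : G)⁻¹) * (a : G)⁻¹
    group)

theorem mult_lin [Finite G] {D N : Subgroup G} [Fintype D] [Fintype N]
    (hDN : ∀ d ∈ D, ∀ n ∈ N, d * n * d⁻¹ ∈ N) (lam : D →* ℂˣ) {χ : G → ℂ} (hχ : IsCharacter G χ) :
    ∃ m : ℕ, ∑ n : N, ∑ d : D, χ (n * d) * conj (lam d : ℂ) = ((Nat.card N : ℂ) * Nat.card D) * m := by
  classical
  let X := N ⋊[act D N hDN] D
  let f : X →* G := SemidirectProduct.lift N.subtype D.subtype (fun d => by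
    ext n
    rfl)
  have hfX : Finite X := Finite.of_equiv (N × D) SemidirectProduct.equivProd.symm
  have : Fintype X := Fintype.ofFinite X
  obtain ⟨m, hm⟩ := classInner_isNat (isCharacter_comp f hχ)
    (Characters.Linear.isCharacter_hom (lam.comp SemidirectProduct.rightHom))
  refine ⟨m, ?_⟩
  rw [classInner_def, inv_mul_eq_iff_eq_mul₀ card_ne_zero_complex] at hm
  have hc : (Nat.card X : ℂ) = (Nat.card N : ℂ) * Nat.card D := by
    rw [SemidirectProduct.card]
    push_cast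
    rfl
  rw [hc] at hm
  rw [← hm, ← Finset.sum_product' (f := fun (n : N) (d : D) => χ (n * d) * conj (lam d : ℂ))]
  symm
  refine Fintype.sum_equiv SemidirectProduct.equivProd _ _ fun x => ?_
  rfl

end mult

/-! ### Rank one -/

section rank

variable {G : Type*} [Group G] {B Q D W : Subgroup G} {w : G}

/-- **Integrality**: the degree divides `(|Q| + 1) |Q| m`, `m` the dimension of the fixed space of `Q`. -/
theorem dvd_of_mult (h : RankOne B Q D W w) [Finite G] [Fintype Q] {n m : ℕ}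
    (ρ : Representation ℂ G (Fin n → ℂ)) (hρ : ρ.IsIrreducible)
    (hm : ∑ u : Q, ρ.character u = (Nat.card Q : ℂ) * m) : n ∣ (Nat.card Q + 1) * Nat.card Q * m := by
  classical
  have := Fintype.ofFinite G
  have := Fintype.ofFinite B
  set f : G → G → ℂ := fun g x => if x⁻¹ * g * x ∈ Q then 1 else 0 with hf
  have hfB : ∀ g x b, b ∈ B → f g (x * b) = f g x := by
    intro g x b hb
    have h1 : (x * b)⁻¹ * g * (x * b) ∈ Q ↔ x⁻¹ * g * x ∈ Q := by
      have e1 : (x * b)⁻¹ * g * (x * b) = b⁻¹ * (x⁻¹ * g * x) * b := by group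
      rw [e1]
      constructor
      · intro h1
        have h2 := h.Qn b hb _ h1
        have e2 : b * (b⁻¹ * (x⁻¹ * g * x) * b) * b⁻¹ = x⁻¹ * g * x := by group
        rwa [e2] at h2
      · intro h1
        exact h.Qn' hb h1
    simp only [hf, h1]
  set Ψ : G → ℂ := fun g => f g 1 + ∑ u : Q, f g (u * w) with hΨ
  have hB : (Nat.card B : ℂ) ≠ 0 := card_ne_zero_complex
  have key : ∀ g, ∑ x : G, f g x = (Nat.card B : ℂ) * Ψ g := by
    intro g
    rw [h.sum_eq, Finset.sum_congr rfl (g := fun _ => f g 1) (fun (b : B) _ => by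
      have := hfB g 1 b b.2
      rwa [one_mul] at this)]
    rw [Finset.sum_congr rfl (g := fun u : Q => (Nat.card B : ℂ) * f g (u * w)) (fun (u : Q) _ => by
      rw [Finset.sum_congr rfl (g := fun _ => f g (u * w)) (fun (b : B) _ => hfB g _ b b.2), Finset.sum_const,
        Finset.card_univ, ← Nat.card_eq_fintype_card, nsmul_eq_mul])]
    rw [Finset.sum_const, Finset.card_univ, ← Nat.card_eq_fintype_card, nsmul_eq_mul, ← Finset.mul_sum]
    simp only [hΨ]
    ring
  have hint : ∀ g, IsIntegral ℤ (Ψ g) := by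
    intro g
    have h1 : ∀ x, IsIntegral ℤ (f g x) := by
      intro x
      simp only [hf]
      split_ifs
      · exact isIntegral_one
      · exact isIntegral_zero
    exact (h1 1).add (IsIntegral.sum _ fun u _ => h1 _)
  have hcl : IsClassFunction G Ψ := by
    intro g y
    apply mul_left_cancel₀ hB
    rw [← key, ← key]
    refine Fintype.sum_equiv (Equiv.mulLeft y⁻¹) _ _ fun x => ?_
    have e : x⁻¹ * (y * g * y⁻¹) * x = (y⁻¹ * x)⁻¹ * g * (y⁻¹ * x) := by group
    simp only [hf, Equiv.coe_mulLeft, e]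
  have hsum : ∑ g, Ψ g * ρ.character g = ((Nat.card Q + 1) * Nat.card Q * m : ℕ) := by
    apply mul_left_cancel₀ hB
    have h1 : (Nat.card B : ℂ) * ∑ g, Ψ g * ρ.character g = ∑ x : G, ∑ g : G, f g x * ρ.character g := by
      rw [Finset.mul_sum, Finset.sum_comm]
      refine Finset.sum_congr rfl fun g _ => ?_
      rw [← Finset.sum_mul, key, mul_assoc]
    have h2 : ∀ x ∈ (Finset.univ : Finset G), ∑ g : G, f g x * ρ.character g = (Nat.card Q : ℂ) * m := by
      intro x _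
      rw [← hm]
      symm
      refine (Fintype.sum_of_injective (fun u : Q => x * (u : G) * x⁻¹) (fun a b hab => ?_) _ _ (fun g hg => ?_)
        (fun u => ?_))
      · exact Subtype.ext (mul_left_cancel (mul_right_cancel hab))
      · have h3 : ¬ x⁻¹ * g * x ∈ Q := by
          intro hc
          apply hg
          exact ⟨⟨_, hc⟩, by simp only []; group⟩
        simp only [hf, if_neg h3, zero_mul]
      · have h3 : x⁻¹ * (x * (u : G) * x⁻¹) * x ∈ Q := by
          have e : x⁻¹ * (x * (u : G) * x⁻¹) * x = u := by group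
          rw [e]
          exact u.2
        simp only [hf, if_pos h3, one_mul]
        exact (Representation.char_conj _ _ _).symm
    rw [h1, Finset.sum_congr rfl h2, Finset.sum_const, Finset.card_univ, ← Nat.card_eq_fintype_card, h.card_eq,
      nsmul_eq_mul]
    push_cast
    ring
  have h1 := Cfsg.Agent.Classification.TypeZIV.Parity.isIntegral_omega ρ Ψ hint hcl
  rw [hsum, Representation.char_one, Module.finrank_fin_fun] at h1
  refine Cfsg.Agent.Characters.DegreeBounds.nat_dvd_of_isIntegral_div ?_ h1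
  rintro rfl
  have h2 := isIrr_apply_one_ne_zero (⟨0, ρ, hρ, rfl⟩ : IsIrrCharacter G ρ.character)
  rw [Representation.char_one, Module.finrank_fin_fun] at h2
  exact h2 (by norm_num)

/-- **The torus acts freely on `Q / Z₀`.** -/
theorem sum_coset [Finite G] [Fintype Q] {Z0 : Subgroup G} [Fintype Z0] (hZQ : Z0 ≤ Q)
    (hZcen : ∀ z ∈ Z0, ∀ u ∈ Q, z * u = u * z) {t : G} (ht : ∀ u ∈ Q, t * u * t⁻¹ ∈ Q)
    (hfpf : ∀ u ∈ Q, (∃ z ∈ Z0, t * u * t⁻¹ = u * z) → u ∈ Z0)
    {χ : G → ℂ} (hχ : IsClassFunction G χ) :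
    (Nat.card Z0 : ℂ) * ∑ u : Q, χ (u * t) = (Nat.card Q : ℂ) * ∑ z : Z0, χ (z * t) := by
  classical
  set N : Subgroup Q := Z0.subgroupOf Q with hN
  have : Fintype (Q ⧸ N) := Fintype.ofFinite _
  have hcN : Nat.card N = Nat.card Z0 := Nat.card_congr (Subgroup.subgroupOfEquivOfLe hZQ).toEquiv
  have hcard : Nat.card Q = Nat.card (Q ⧸ N) * Nat.card Z0 := by
    rw [Subgroup.card_eq_card_quotient_mul_card_subgroup N, hcN]
  -- the map
  let s : Q ⧸ N → Q := Quotient.out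
  have hmem : ∀ x : (Q ⧸ N) × Z0, (x.2 : G) * (s x.1 : G) * (t * (s x.1 : G)⁻¹ * t⁻¹) ∈ Q := fun x =>
    Q.mul_mem (Q.mul_mem (hZQ x.2.2) (s x.1).2) (ht _ (Q.inv_mem (s x.1).2))
  let F : (Q ⧸ N) × Z0 → Q := fun x => ⟨_, hmem x⟩
  have hinj : Function.Injective F := by
    rintro ⟨a, y⟩ ⟨b, z⟩ hab
    have h1 : (y : G) * (s a : G) * (t * (s a : G)⁻¹ * t⁻¹) = z * (s b : G) * (t * (s b : G)⁻¹ * t⁻¹) :=
      congrArg Subtype.val hab
    -- `v = (s a)⁻¹ (s b)`
    have h2 : ((s b : G)⁻¹ * (s a : G)) ∈ Z0 := by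
      apply hfpf _ (Q.mul_mem (Q.inv_mem (s b).2) (s a).2)
      refine ⟨(z : G)⁻¹ * y, Z0.mul_mem (Z0.inv_mem z.2) y.2, ?_⟩
      have hy := hZcen y y.2 _ (s a).2
      have hz := hZcen z z.2 _ (s b).2
      have hc := hZcen ((z : G)⁻¹ * y) (Z0.mul_mem (Z0.inv_mem z.2) y.2) ((s b : G)⁻¹ * (s a : G))
        (Q.mul_mem (Q.inv_mem (s b).2) (s a).2)
      have h3 : (s b : G)⁻¹ * (z : G)⁻¹ * y * s a * t * (s a : G)⁻¹ = t * (s b : G)⁻¹ := by
        have h4 : (y : G) * (s a : G) * t * (s a : G)⁻¹ = z * (s b : G) * t * (s b : G)⁻¹ := by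
          have := congrArg (fun g => g * t) h1
          simpa [mul_assoc] using this
        calc (s b : G)⁻¹ * (z : G)⁻¹ * y * s a * t * (s a : G)⁻¹ =
            (s b : G)⁻¹ * (z : G)⁻¹ * ((y : G) * (s a : G) * t * (s a : G)⁻¹) := by group
          _ = (s b : G)⁻¹ * (z : G)⁻¹ * (z * (s b : G) * t * (s b : G)⁻¹) := by rw [h4]
          _ = _ := by group
      have h5 : (s b : G)⁻¹ * (z : G)⁻¹ = (z : G)⁻¹ * (s b : G)⁻¹ := by
        rw [← mul_inv_rev, ← mul_inv_rev, hz]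
      calc t * ((s b : G)⁻¹ * (s a : G)) * t⁻¹ = (t * (s b : G)⁻¹) * s a * t⁻¹ := by group
        _ = ((s b : G)⁻¹ * (z : G)⁻¹ * y * s a * t * (s a : G)⁻¹) * s a * t⁻¹ := by rw [h3]
        _ = (s b : G)⁻¹ * (z : G)⁻¹ * (y * s a) := by group
        _ = (z : G)⁻¹ * (s b : G)⁻¹ * (s a * y) := by rw [h5, hy]
        _ = (z : G)⁻¹ * ((s b : G)⁻¹ * s a) * y := by group
        _ = ((s b : G)⁻¹ * s a) * (z : G)⁻¹ * y := by
          rw [hZcen _ (Z0.inv_mem z.2) _ (Q.mul_mem (Q.inv_mem (s b).2) (s a).2)]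
        _ = _ := by group
    have h3 : a = b := by
      rw [← Quotient.out_eq a, ← Quotient.out_eq b]
      symm
      exact QuotientGroup.eq.2 (show ((s b)⁻¹ * s a : Q) ∈ N from h2)
    subst h3
    have h4 : (y : G) = z := mul_right_cancel (mul_right_cancel h1)
    rw [Subtype.ext h4]
  have hbij : Function.Bijective F := by
    rw [Nat.bijective_iff_injective_and_card]
    exact ⟨hinj, by rw [Nat.card_prod, ← hcard]⟩
  have h1 : ∑ u : Q, χ (u * t) = (Nat.card (Q ⧸ N) : ℂ) * ∑ z : Z0, χ (z * t) := by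
    rw [← hbij.sum_comp (fun u : Q => χ (u * t)), Fintype.sum_prod_type]
    rw [Finset.sum_congr rfl (g := fun _ => ∑ z : Z0, χ (z * t)), Finset.sum_const, Finset.card_univ,
      ← Nat.card_eq_fintype_card, nsmul_eq_mul]
    intro a _
    refine Finset.sum_congr rfl fun z _ => ?_
    have e : ((F (a, z) : Q) : G) * t = (s a : G) * (z * t) * (s a : G)⁻¹ := by
      change (z : G) * (s a : G) * (t * (s a : G)⁻¹ * t⁻¹) * t = _
      rw [hZcen z z.2 _ (s a).2]
      group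
    rw [e, hχ]
  rw [h1, hcard]
  push_cast
  ring

/-- the constituents are over the restriction of `lam` -/
theorem char_of_fix [Finite G] [Fintype Q] (h : RankOne B Q D W w) {lam : W →* ℂˣ} {n : ℕ}
    {ρ : Representation ℂ G (Fin n → ℂ)} (hρ : ρ.IsIrreducible) {φ : (Fin 1 → ℂ) →ₗ[ℂ] (Fin n → ℂ)}
    (H : FixRep h ρ (Characters.Linear.repOfHom lam) φ) {z : G} (hz : z ∈ Subgroup.center G) (hzD : z ∈ D) :
    ρ z = (lam ⟨z, h.DW hzD⟩ : ℂ) • (1 : Module.End ℂ (Fin n → ℂ)) := by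
  obtain ⟨c, hc⟩ := Characters.Central.exists_smul_of_comm ρ hρ (ρ z) (by
    intro g
    rw [← map_mul, ← map_mul, Subgroup.mem_center_iff.1 hz g])
  have h1 := H.equiD z hzD 1
  rw [Characters.Linear.repOfHom_apply, hc] at h1
  have h2 : c • φ 1 = (lam ⟨z, h.DW hzD⟩ : ℂ) • φ 1 := by
    have h3 : φ (((lam ⟨z, h.DW hzD⟩ : ℂ) • (LinearMap.id : (Fin 1 → ℂ) →ₗ[ℂ] (Fin 1 → ℂ))) 1) =
        (lam ⟨z, h.DW hzD⟩ : ℂ) • φ 1 := by
      rw [LinearMap.smul_apply, LinearMap.id_apply, map_smul]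
    rw [← h3, ← h1]
    rfl
  have h3 : φ 1 ≠ 0 := by
    intro h0
    have := H.inj (h0.trans (map_zero φ).symm)
    have h4 := congrFun this 0
    simp at h4
  have h4 : (c - (lam ⟨z, h.DW hzD⟩ : ℂ)) • φ 1 = 0 := by rw [sub_smul, h2, sub_self]
  rw [hc, sub_eq_zero.1 ((smul_eq_zero.1 h4).resolve_right h3)]

/-- **The abstract theorem.** -/
theorem exists_dvd_own [Finite G] (h : RankOne B Q D W w) {p q a : ℕ} (hp : p.Prime) (hqa : q = p ^ a)
    (hq : 4 < q) (hQ : Nat.card Q = q ^ 3) {Z0 : Subgroup G} (hZQ : Z0 ≤ Q) (hZc : Nat.card Z0 = q)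
    (hZcen : ∀ z ∈ Z0, ∀ u ∈ Q, z * u = u * z)
    (hcomm : ∀ u ∈ Q, u ∉ Z0 → ∀ z ∈ Z0, ∃ v ∈ Q, v * u * v⁻¹ = u * z)
    {K : Subgroup G} (hKc : K ≤ Subgroup.center G) (hKD : K ≤ D)
    (hidx : Nat.card D * 3 = (q ^ 2 - 1) * Nat.card K)
    (hDZ : ∀ d ∈ D, ∀ z ∈ Z0, d * z * d⁻¹ ∈ Z0)
    (hfpf : ∀ t ∈ D, t ∉ K → ∀ u ∈ Q, (∃ z ∈ Z0, t * u * t⁻¹ = u * z) → u ∈ Z0)
    (lam : D →* ℂˣ) (hlam : ∀ d (hd : d ∈ D), lam ⟨w * d * w⁻¹, h.w_conj hd⟩ = lam ⟨d, hd⟩) :
    ∃ χ : G → ℂ, IsIrrCharacter G χ ∧ (∀ z (hz : z ∈ K), χ z = χ 1 * lam ⟨z, hKD hz⟩) ∧ p ∣ charDegree χ := by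
  classical
  have := Fintype.ofFinite G
  have := Fintype.ofFinite Q
  have := Fintype.ofFinite D
  have := Fintype.ofFinite Z0
  have := Fintype.ofFinite K
  by_contra hcon
  push Not at hcon
  obtain ⟨Lam, hLam⟩ := h.exists_extend lam hlam
  have hσ : Representation.IsIrreducible
      ((Characters.Linear.repOfHom Lam).comp (Subgroup.inclusion h.DW)) :=
    Characters.Linear.isIrreducible_of_finrank_eq_one _ (by simp)
  obtain ⟨n₁, n₂, ρ₁, ρ₂, φ₁, φ₂, hρ₁, hρ₂, -, H₁, H₂, hsum⟩ := h.exists_pair (Characters.Linear.repOfHom Lam) hσ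
  have hirr : IsIrrCharacter D (fun d => (Characters.Linear.repOfHom Lam).character (Subgroup.inclusion h.DW d)) :=
    ⟨1, _, hσ, rfl⟩
  have hσ1 : (Characters.Linear.repOfHom Lam).character 1 = 1 := by
    rw [Characters.Linear.character_repOfHom]
    simp
  have hN : (Nat.card Q : ℂ) ≠ 0 := card_ne_zero_complex
  -- the data of one constituent
  have data : ∀ {n : ℕ} {ρ : Representation ℂ G (Fin n → ℂ)} (hρ : ρ.IsIrreducible)
      {φ : (Fin 1 → ℂ) →ₗ[ℂ] (Fin n → ℂ)} (H : FixRep h ρ (Characters.Linear.repOfHom Lam) φ),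
      (∑ u : Q, ρ.character u = (Nat.card Q : ℂ)) ∧ n ∣ q ^ 3 + 1 ∧ 0 < n := by
    intro n ρ hρ φ H
    have hF : ∑ u : Q, ρ.character u = (Nat.card Q : ℂ) := by
      have := H.Fq_one
      rw [Characters.Linear.character_repOfHom, Fq] at this
      have h1 : (Nat.card Q : ℂ)⁻¹ * ∑ u : Q, ρ.character u = 1 := by simpa using this
      rwa [inv_mul_eq_iff_eq_mul₀ hN, mul_one] at h1
    have hirrρ : IsIrrCharacter G ρ.character := ⟨n, ρ, hρ, rfl⟩
    have hdeg : charDegree ρ.character = n := by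
      have h1 := Cfsg.Agent.Blocks.Basic.irr_one_eq_charDegree hirrρ
      rw [Representation.char_one, Module.finrank_fin_fun] at h1
      exact_mod_cast h1.symm
    have hpn : ¬ p ∣ n := by
      rw [← hdeg]
      refine hcon ρ.character hirrρ fun z hz => ?_
      have h1 := char_of_fix h hρ H (hKc hz) (hKD hz)
      rw [hLam] at h1
      rw [Representation.char_one]
      unfold Representation.character
      rw [h1, map_smul, LinearMap.trace_one, smul_eq_mul, mul_comm]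
    refine ⟨hF, ?_, ?_⟩
    · have h1 := dvd_of_mult h (m := 1) ρ hρ (by rw [hF, Nat.cast_one, mul_one])
      rw [mul_one, hQ] at h1
      have h2 : Nat.Coprime n (q ^ 3) := by
        rw [hqa, ← pow_mul]
        exact ((Nat.Prime.coprime_iff_not_dvd hp).2 hpn).symm.pow_right _
      exact h2.dvd_of_dvd_mul_right h1
    · rw [← hdeg]
      exact Cfsg.Agent.Blocks.Basic.charDegree_pos hirrρ
  obtain ⟨hF₁, hd₁, hp₁⟩ := data hρ₁ H₁
  obtain ⟨hF₂, hd₂, hp₂⟩ := data hρ₂ H₂
  have hn : n₁ + n₂ = q ^ 3 + 1 := by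
    have h1 := h.ind_one hirr
    rw [hsum, Pi.add_apply, hσ1, mul_one, Representation.char_one, Representation.char_one, Module.finrank_fin_fun,
      Module.finrank_fin_fun, hQ] at h1
    exact_mod_cast h1
  have hhalf : 2 * n₁ = q ^ 3 + 1 := by
    have key : ∀ {a b c : ℕ}, a + b = c → a ∣ c → 0 < b → 0 < a → 2 * a ≤ c := by
      intro a b c h1 h2 h3 h4
      obtain ⟨k, hk⟩ := h2
      have h5 : 2 ≤ k := by
        by_contra hlt
        have h6 : k = 0 ∨ k = 1 := by omega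
        rcases h6 with rfl | rfl
        · omega
        · omega
      rw [hk, mul_comm a k]
      exact Nat.mul_le_mul_right a h5
    have h1 := key hn hd₁ hp₂ hp₁
    have h2 := key (add_comm n₁ n₂ ▸ hn) hd₂ hp₁ hp₂
    omega
  -- the fixed space of `Z₀`
  obtain ⟨f₁, hf₁⟩ := Cfsg.Agent.H710.Cuspidal.exists_mult Z0 (⟨n₁, ρ₁, hρ₁, rfl⟩ : IsIrrCharacter G ρ₁.character)
  obtain ⟨f₂, hf₂⟩ := Cfsg.Agent.H710.Cuspidal.exists_mult Z0 (⟨n₂, ρ₂, hρ₂, rfl⟩ : IsIrrCharacter G ρ₂.character)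
  have hqc : (q : ℂ) ≠ 0 := by
    have : q ≠ 0 := by omega
    exact_mod_cast this
  have hff : f₁ + f₂ = q ^ 2 + 1 := by
    have h1 : ∑ z : Z0, indFun B (h.lam (Characters.Linear.repOfHom Lam).character) (z : G) =
        (q : ℂ) * (q ^ 2 + 1) := by
      rw [← Finset.add_sum_erase _ _ (Finset.mem_univ (1 : Z0))]
      have h1 : ∀ v ∈ (Finset.univ : Finset Z0).erase 1,
          indFun B (h.lam (Characters.Linear.repOfHom Lam).character) (v : G) = 1 := by
        intro v hv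
        rw [h.ind_Q hirr (hZQ v.2) fun hc => (Finset.ne_of_mem_erase hv) (Subtype.ext hc), hσ1]
      rw [Finset.sum_congr rfl h1, OneMemClass.coe_one, h.ind_one hirr, hσ1, Finset.sum_const,
        Finset.card_erase_of_mem (Finset.mem_univ _), Finset.card_univ, nsmul_eq_mul,
        ← Nat.card_eq_fintype_card, hZc, hQ, Nat.cast_sub (by omega)]
      push_cast
      ring
    rw [hsum] at h1
    simp only [Pi.add_apply, Finset.sum_add_distrib] at h1
    rw [hf₁, hf₂, hZc] at h1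
    have h2 : (q : ℂ) * ((f₁ : ℂ) + f₂) = q * (q ^ 2 + 1) := by linear_combination h1
    have h3 := mul_left_cancel₀ hqc h2
    exact_mod_cast h3
  -- the torus
  have hDQ : ∀ d ∈ D, ∀ u ∈ Q, d * u * d⁻¹ ∈ Q := fun d hd u hu => h.Qn d (h.DB hd) u hu
  obtain ⟨mQ, hmQ⟩ := mult_lin hDQ lam (isIrr_isCharacter (⟨n₁, ρ₁, hρ₁, rfl⟩ : IsIrrCharacter G ρ₁.character))
  obtain ⟨mZ, hmZ⟩ := mult_lin hDZ lam (isIrr_isCharacter (⟨n₁, ρ₁, hρ₁, rfl⟩ : IsIrrCharacter G ρ₁.character))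
  have hcl : IsClassFunction G ρ₁.character :=
    isIrr_isClassFunction (⟨n₁, ρ₁, hρ₁, rfl⟩ : IsIrrCharacter G ρ₁.character)
  have hnorm : ∀ d : D, (lam d : ℂ) * conj (lam d : ℂ) = 1 := by
    intro d
    have h1 : (lam d : ℂ) ^ Nat.card D = 1 := by
      rw [← Units.val_pow_eq_pow_val, ← map_pow, pow_card_eq_one', map_one, Units.val_one]
    have h2 : ‖(lam d : ℂ)‖ = 1 := Complex.norm_eq_one_of_pow_eq_one h1 Nat.card_pos.ne'
    rw [Complex.mul_conj, Complex.normSq_eq_norm_sq, h2]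
    norm_num
  have hB : ((q : ℤ) ^ 2 - 1) * ((mZ : ℤ) - mQ) = 3 * ((f₁ : ℤ) - 1) := by
    -- the difference
    have e1 : ∀ d : D, (∑ u : Q, ρ₁.character (u * d) * conj (lam d : ℂ)) -
        (q : ℂ) ^ 2 * ∑ z : Z0, ρ₁.character (z * d) * conj (lam d : ℂ) =
        if (d : G) ∈ K then (q : ℂ) ^ 3 * (1 - f₁) else 0 := by
      intro d
      split_ifs with hd
      · have hz : ∀ x : G, ρ₁.character (x * d) * conj (lam d : ℂ) = ρ₁.character x := by
          intro x
          have h1 := char_of_fix h hρ₁ H₁ (hKc hd) d.2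
          rw [hLam] at h1
          have h2 : ρ₁.character (x * d) = (lam d : ℂ) * ρ₁.character x := by
            unfold Representation.character
            rw [map_mul, h1, mul_smul_comm, mul_one, map_smul, smul_eq_mul]
          rw [h2]
          linear_combination ρ₁.character x * hnorm d
        rw [Finset.sum_congr rfl fun (u : Q) _ => hz u, Finset.sum_congr rfl fun (u : Z0) _ => hz u, hF₁, hf₁, hQ, hZc]
        push_cast
        ring
      · have h1 := sum_coset hZQ hZcen (hDQ d d.2) (hfpf d d.2 hd) hcl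
        rw [hQ, hZc] at h1
        have h2 : ∑ u : Q, ρ₁.character (u * d) = (q : ℂ) ^ 2 * ∑ z : Z0, ρ₁.character (z * d) := by
          apply mul_left_cancel₀ hqc
          rw [h1]
          push_cast
          ring
        rw [← Finset.sum_mul, ← Finset.sum_mul, h2]
        ring
    have e2 : ∑ d : D, (if (d : G) ∈ K then (q : ℂ) ^ 3 * (1 - f₁) else 0) =
        (Nat.card K : ℂ) * ((q : ℂ) ^ 3 * (1 - f₁)) := by
      rw [← Finset.sum_filter, Finset.sum_const, nsmul_eq_mul]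
      congr 2
      rw [← Fintype.card_subtype, ← Nat.card_eq_fintype_card]
      refine Nat.card_congr ⟨fun d => ⟨d.1, d.2⟩, fun k => ⟨⟨k, hKD k.2⟩, k.2⟩, fun d => rfl, fun k => rfl⟩
    have e3 : ((Nat.card Q : ℂ) * Nat.card D) * mQ - (q : ℂ) ^ 2 * (((Nat.card Z0 : ℂ) * Nat.card D) * mZ) =
        (Nat.card K : ℂ) * ((q : ℂ) ^ 3 * (1 - f₁)) := by
      rw [← hmQ, ← hmZ, ← e2, Finset.sum_comm, Finset.sum_comm (γ := Z0), Finset.mul_sum, ← Finset.sum_sub_distrib]
      exact Finset.sum_congr rfl fun d _ => e1 d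
    rw [hQ, hZc] at e3
    have hq3 : ((q : ℂ) ^ 3) ≠ 0 := pow_ne_zero _ hqc
    have e4 : (Nat.card D : ℂ) * ((mZ : ℂ) - mQ) = (Nat.card K : ℂ) * ((f₁ : ℂ) - 1) := by
      apply mul_left_cancel₀ hq3
      push_cast at e3
      linear_combination -e3
    have e5 : (Nat.card D : ℂ) * 3 = ((q : ℂ) ^ 2 - 1) * Nat.card K := by
      have h1 : 1 ≤ q ^ 2 := Nat.one_le_pow _ _ (by omega)
      have h2 : ((Nat.card D * 3 : ℕ) : ℂ) = (((q ^ 2 - 1) * Nat.card K : ℕ) : ℂ) := by rw [hidx]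
      push_cast [Nat.cast_sub h1] at h2
      exact h2
    have hK0 : (Nat.card K : ℂ) ≠ 0 := card_ne_zero_complex
    have e6 : ((q : ℂ) ^ 2 - 1) * ((mZ : ℂ) - mQ) = 3 * ((f₁ : ℂ) - 1) := by
      apply mul_left_cancel₀ hK0
      linear_combination 3 * e4 - ((mZ : ℂ) - mQ) * e5
    exact_mod_cast e6
  -- modulo `q`
  obtain ⟨k, hk⟩ := heis (P := Q) (q := q) (Z := Z0.subgroupOf Q) hQ (by omega)
    (by rw [← hZc]; exact Nat.card_congr (Subgroup.subgroupOfEquivOfLe hZQ).toEquiv)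
    (fun z hz => Subgroup.mem_center_iff.2 fun u => Subtype.ext (hZcen z hz u u.2).symm)
    (fun u hu z hz => by
      obtain ⟨v, hv, hvu⟩ := hcomm u u.2 hu z hz
      exact ⟨⟨v, hv⟩, Subtype.ext hvu⟩)
    (isCharacter_comp Q.subtype (isIrr_isCharacter (⟨n₁, ρ₁, hρ₁, rfl⟩ : IsIrrCharacter G ρ₁.character)))
  have hk' : (n₁ : ℤ) - f₁ = q * k := by
    have h1 : ∑ z : Z0.subgroupOf Q, (ρ₁.character ∘ Q.subtype) z = ∑ z : Z0, ρ₁.character z :=
      Fintype.sum_equiv (Subgroup.subgroupOfEquivOfLe hZQ).toEquiv _ _ fun z => rfl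
    rw [h1, hf₁, hZc] at hk
    have h2 : (ρ₁.character ∘ Q.subtype) 1 = (n₁ : ℂ) := by
      show ρ₁.character 1 = _
      rw [Representation.char_one, Module.finrank_fin_fun]
    rw [h2] at hk
    have h3 : (n₁ : ℂ) - f₁ = q * k := by
      apply mul_left_cancel₀ hqc
      linear_combination hk
    exact_mod_cast h3
  -- the contradiction
  obtain ⟨b, hb⟩ : ∃ b : ℤ, b = (mZ : ℤ) - mQ := ⟨_, rfl⟩
  rw [← hb] at hB
  have hq' : (4 : ℤ) < q := by exact_mod_cast hq
  have hhalf' : 2 * (n₁ : ℤ) = (q : ℤ) ^ 3 + 1 := by exact_mod_cast hhalf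
  have hff' : (f₁ : ℤ) + f₂ = (q : ℤ) ^ 2 + 1 := by exact_mod_cast hff
  have hf1 : (0 : ℤ) ≤ f₁ := by positivity
  have hf2 : (0 : ℤ) ≤ f₂ := by positivity
  have hq25 : (25 : ℤ) ≤ (q : ℤ) ^ 2 := by nlinarith
  have hb0 : 0 ≤ b := by
    by_contra hlt
    have h1 : ((q : ℤ) ^ 2 - 1) * b ≤ ((q : ℤ) ^ 2 - 1) * (-1) :=
      mul_le_mul_of_nonneg_left (by omega) (by omega)
    linarith
  have hb3 : b ≤ 3 := by
    by_contra hlt
    have h1 : ((q : ℤ) ^ 2 - 1) * 4 ≤ ((q : ℤ) ^ 2 - 1) * b :=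
      mul_le_mul_of_nonneg_left (by omega) (by omega)
    linarith
  have hmod : (q : ℤ) ∣ 2 * b - 3 := by
    refine ⟨2 * b * q - 3 * (q : ℤ) ^ 2 + 6 * k, ?_⟩
    linear_combination (-2) * hB - 3 * hhalf' + 6 * hk'
  have h4 := Int.le_of_dvd (a := (q : ℤ)) (b := |2 * b - 3|) (abs_pos.2 (by omega)) ((dvd_abs _ _).2 hmod)
  have h5 : |2 * b - 3| ≤ 3 := abs_le.2 ⟨by omega, by omega⟩
  omega

end rank

end Cfsg.Agent.H497.RIM.Own
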