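import Cfsg.Agent.H963.RIM.OwnRows
import Cfsg.Agent.H497.RIM.PSUOwn

/-!
# S4816, RIM-L-OWN: the row `own_psu` of `H325.RIM.RowsNB` (helper497)
-/

set_option autoImplicit false

namespace Cfsg.Agent.H497.RIM

open Cfsg Cfsg.Agent.H665.RIM Cfsg.Agent.H325.RIM Cfsg.Agent.OrdDiv Cfsg.Agent.H436

theorem own_psu : ∀ p n q : ℕ, p.Prime → p ≠ 2 → p ∣ q → NBRow p (.psu n q) := by
  refine Cfsg.Agent.H963.RIM.own_psu_of fun p q hp hp2 hpq S _ _ hS _ => ?_
  obtain ⟨F, _, _, hF, ⟨e⟩⟩ := hS.real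
  have hq0 : q ≠ 0 := by
    rintro rfl
    have := Fintype.card_pos (α := F)
    rw [hF] at this
    exact absurd this (by norm_num)
  have h1 := Nat.le_of_dvd (Nat.pos_of_ne_zero hq0) hpq
  have h2 := hp.two_le
  exact NBall.congr e (Cfsg.Agent.H497.RIM.Own.nball_psu3_own hF (by omega) hp hp2 hpq)

end Cfsg.Agent.H497.RIM
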