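import Cfsg.Agent.H497.RIM.Rank
import Cfsg.Agent.H904.PV.U3
import Cfsg.Agent.H665.RIM.Defs

/-!
# S4816, task RIM-L-PSU3: `NB p m (PSU 3 F q)` for odd primes `p` dividing `q - 1` (helper497)

* `nb_of_data` : groups with a split BN pair of rank one: `NB p m S` if `p` is the order of an element of the torus whose
  nontrivial powers act fixed point freely on `U`, `m` prime to `p` and `|U|`;
* `nb_psu3` : `PSU 3 F q`, `q > 2`, `p` odd, `p ∣ q - 1`, `m` prime to `q` and `p` (in particular `m = 3`).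
-/

set_option autoImplicit false

namespace Cfsg.Agent.H497.RIM

open Cfsg Cfsg.Agent.Characters.Core
open Cfsg.Agent.LieRecognition.RankOneAbstract (Data)
open Cfsg.Agent.H665.RIM (NB NBall)

universe u

/-- the lift of a subgroup of order prime to the kernel of a central extension -/
theorem exists_lift {E S : Type*} [Group E] [Group S] [Finite E] (π : E →* S) (hπ : Function.Surjective π)
    (hK : π.ker ≤ Subgroup.center E) (U : Subgroup S) (hc : Nat.Coprime (Nat.card π.ker) (Nat.card U)) :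
    ∃ C : Subgroup E, (∀ g, g ∈ C ↔ π g ∈ U ∧ g ^ Nat.card U = 1) ∧ (∀ u ∈ U, ∃ c ∈ C, π c = u) ∧
      Nat.card C = Nat.card U := by
  have hS : Finite S := Finite.of_surjective π hπ
  set B : Subgroup E := U.comap π with hB
  set K' : Subgroup B := π.ker.subgroupOf B with hK'
  have hKB : π.ker ≤ B := by
    intro k hk
    rw [hB, Subgroup.mem_comap, MonoidHom.mem_ker.1 hk]
    exact U.one_mem
  have hcK : Nat.card K' = Nat.card π.ker := Nat.card_congr (Subgroup.subgroupOfEquivOfLe hKB).toEquiv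
  have hiK : K'.index = Nat.card U := by
    change π.ker.relIndex B = Nat.card U
    rw [Subgroup.relIndex_ker, hB, Subgroup.map_comap_eq_self_of_surjective hπ]
  obtain ⟨C, hC⟩ := Subgroup.exists_right_complement'_of_coprime (N := K') (by rw [hcK, hiK]; exact hc)
  have hcC : Nat.card C = Nat.card U := by
    rw [← hiK]
    exact hC.symm.index_eq_card.symm
  have hdec : ∀ g, π g ∈ U → ∃ k ∈ π.ker, ∃ c : B, c ∈ C ∧ g = k * c := by
    intro g hg
    obtain ⟨⟨k, c⟩, h⟩ := hC.2 ⟨g, hg⟩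
    refine ⟨(k : B), k.2, c, c.2, ?_⟩
    exact (congrArg Subtype.val h).symm
  have hpow : ∀ c : B, c ∈ C → (c : E) ^ Nat.card U = 1 := by
    intro c hc
    have h1 : (⟨c, hc⟩ : C) ^ Nat.card C = 1 := pow_card_eq_one'
    rw [hcC] at h1
    have h2 := congrArg (fun t : C => ((t : B) : E)) h1
    exact h2
  refine ⟨C.map B.subtype, ?_, ?_, ?_⟩
  · intro g
    constructor
    · rintro ⟨c, hc, rfl⟩
      exact ⟨c.2, hpow c hc⟩
    · rintro ⟨hg, hgn⟩
      obtain ⟨k, hk, c, hc', rfl⟩ := hdec g hg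
      have hcomm : Commute k (c : E) := (Subgroup.mem_center_iff.1 (hK hk) c).symm
      rw [hcomm.mul_pow, hpow c hc', mul_one] at hgn
      have h1 : k ^ Nat.card π.ker = 1 := by
        have h1 : (⟨k, hk⟩ : π.ker) ^ Nat.card π.ker = 1 := pow_card_eq_one'
        exact congrArg Subtype.val h1
      have h2 : orderOf k ∣ Nat.gcd (Nat.card π.ker) (Nat.card U) :=
        Nat.dvd_gcd (orderOf_dvd_of_pow_eq_one h1) (orderOf_dvd_of_pow_eq_one hgn)
      rw [hc] at h2
      have h3 : k = 1 := orderOf_eq_one_iff.1 (Nat.dvd_one.1 h2)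
      rw [h3, one_mul]
      exact ⟨c, hc', rfl⟩
  · intro u hu
    obtain ⟨g, rfl⟩ := hπ u
    obtain ⟨k, hk, c, hc', rfl⟩ := hdec g hu
    refine ⟨c, ⟨c, hc', rfl⟩, ?_⟩
    rw [map_mul, MonoidHom.mem_ker.1 hk, one_mul]
  · rw [← hcC]
    exact (Nat.card_congr (C.equivMapOfInjective B.subtype B.subtype_injective).toEquiv).symm

/-- **Groups with a split BN pair of rank one.** -/
theorem nb_of_data {S : Type u} [Group S] [Finite S] {H U : Subgroup S} {w : S} (D : Data H U w)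
    (hU : ¬ Nat.card U ^ 2 ∣ Nat.card S) {p m : ℕ} (hp : p.Prime) {x : S} (hx : x ∈ H) (hxp : orderOf x = p)
    (hreg : ∀ y ∈ Subgroup.zpowers x, y ≠ 1 → ∀ u ∈ U, y * u = u * y → u = 1) (hmU : Nat.Coprime m (Nat.card U))
    (hpm : ¬ p ∣ m) : NB p m S := by
  intro E _ _ π hπ hker _ hcard l _
  have hpf := Fact.mk hp
  obtain ⟨C, hC, hCU, hcC⟩ := exists_lift π hπ hker U (by rw [hcard]; exact hmU)
  have hcop : Nat.Coprime p m := (Nat.Prime.coprime_iff_not_dvd hp).2 hpm
  have hkm : ∀ k ∈ π.ker, k ^ m = 1 := by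
    intro k hk
    have h1 : (⟨k, hk⟩ : π.ker) ^ Nat.card π.ker = 1 := pow_card_eq_one'
    rw [hcard] at h1
    exact congrArg Subtype.val h1
  have hCK : ∀ u ∈ C, u ∈ π.ker → u = 1 := by
    intro u hu hk
    have h2 : orderOf u ∣ Nat.gcd m (Nat.card U) :=
      Nat.dvd_gcd (orderOf_dvd_of_pow_eq_one (hkm u hk)) (orderOf_dvd_of_pow_eq_one ((hC u).1 hu).2)
    rw [hmU] at h2
    exact orderOf_eq_one_iff.1 (Nat.dvd_one.1 h2)
  obtain ⟨w', hw'⟩ := hπ w
  have D' : Data (H.comap π) C w' :=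
    { w_not_mem := by
        intro h
        rw [Subgroup.mem_comap, hw'] at h
        exact D.w_not_mem h
      le := fun c hc => D.le ((hC c).1 hc).1
      norm := by
        intro h hh s hs
        rw [hC] at hs ⊢
        refine ⟨?_, ?_⟩
        · rw [map_mul, map_mul, map_inv]
          exact D.norm _ hh _ hs.1
        · rw [conj_pow, hs.2, mul_one, mul_inv_cancel]
      bruhat := by
        intro g hg
        obtain ⟨s, hs, h⟩ := D.bruhat (π g) hg
        obtain ⟨c, hc, rfl⟩ := hCU s hs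
        refine ⟨c, hc, ?_⟩
        rw [Subgroup.mem_comap, map_mul, map_inv, map_mul, hw']
        exact h
      inter := by
        intro s hs h
        rw [Subgroup.mem_comap, map_mul, map_mul, map_inv, hw'] at h
        exact hCK s hs (D.inter _ ((hC s).1 hs).1 h) }
  -- the lift of `x`
  obtain ⟨g, hg⟩ := hπ x
  obtain ⟨k, hk1, hk2⟩ := Nat.chineseRemainder hcop 1 0
  have hmk : m ∣ k := (Nat.modEq_zero_iff_dvd).1 hk2
  have hxp' : x ^ p = 1 := by rw [← hxp]; exact pow_orderOf_eq_one x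
  have hx' : π (g ^ k) = x := by
    rw [map_pow, hg]
    have : x ^ k = x ^ 1 := by
      rw [pow_eq_pow_iff_modEq, hxp]
      exact hk1
    rw [this, pow_one]
  have hx1 : x ≠ 1 := by
    rintro rfl
    rw [orderOf_one] at hxp
    exact hp.ne_one hxp.symm
  have hgk : (g ^ k) ^ p = 1 := by
    obtain ⟨j, hj⟩ := hmk
    have h1 : g ^ p ∈ π.ker := by rw [MonoidHom.mem_ker, map_pow, hg, hxp']
    rw [← pow_mul, mul_comm k p, pow_mul, hj, pow_mul, hkm _ h1, one_pow]
  have hord : orderOf (g ^ k) = p := by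
    apply orderOf_eq_prime hgk
    intro h
    rw [h, map_one] at hx'
    exact hx1 hx'.symm
  refine exists_dvd D' π.ker hker hCK l ?_ (x := g ^ k) ?_ hord ?_
  · rw [hcC, Subgroup.index_ker, MonoidHom.range_eq_top.2 hπ, Subgroup.card_top]
    exact hU
  · rw [Subgroup.mem_comap, hx']
    exact hx
  · intro y hy hy1 u hu hyu
    apply hCK u hu
    rw [MonoidHom.mem_ker]
    refine hreg (π y) ?_ ?_ (π u) ((hC u).1 hu).1 ?_
    · obtain ⟨i, rfl⟩ := hy
      refine ⟨i, ?_⟩
      change x ^ i = π ((g ^ k) ^ i)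
      rw [map_zpow, hx']
    · intro h
      apply hy1
      have h2 : y ^ p = 1 := by
        obtain ⟨i, rfl⟩ := hy
        change ((g ^ k) ^ i) ^ p = 1
        rw [← zpow_natCast, ← zpow_mul, mul_comm, zpow_mul, zpow_natCast, hgk, one_zpow]
      have h3 : orderOf y ∣ Nat.gcd p m :=
        Nat.dvd_gcd (orderOf_dvd_of_pow_eq_one h2) (orderOf_dvd_of_pow_eq_one (hkm y h))
      rw [hcop] at h3
      exact orderOf_eq_one_iff.1 (Nat.dvd_one.1 h3)
    · rw [← map_mul, hyu, map_mul]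

section PSU

open Cfsg.Agent.H904.PVU Cfsg.Agent.UThreeGen.MatGroup
open Cfsg.Agent.HKS.EndU (tor tor_mem)

variable {F : Type u} [Field F] [Fintype F] {q : ℕ}

/-- **`PSU₃(q)`, `p` odd, `p ∣ q - 1`.** -/
theorem nb_psu3 (hF : Fintype.card F = q ^ 2) (hq : 2 < q) {p m : ℕ} (hp : p.Prime) (hp2 : p ≠ 2)
    (hd : p ∣ q - 1) (hmq : Nat.Coprime m q) (hpm : ¬ p ∣ m) : NB p m (Cfsg.PSU 3 F q) := by
  obtain ⟨σ, hσ, π, S⟩ := exists_setup hF hq
  have hqq : q ^ 2 - 1 = (q + 1) * (q - 1) := by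
    have := Nat.sq_sub_sq q 1
    rwa [one_pow] at this
  obtain ⟨a, ha⟩ := exists_order hF (n := p) (by rw [hqq]; exact Dvd.dvd.mul_left hd _)
  have hap : a ^ p = 1 := by rw [← ha]; exact pow_orderOf_eq_one a
  have hd1 : ¬ p ∣ q + 1 := by
    intro h
    have h1 : p ∣ (q + 1) - (q - 1) := Nat.dvd_sub h hd
    have h2 : (q + 1) - (q - 1) = 2 := by omega
    rw [h2] at h1
    exact hp2 ((Nat.prime_dvd_prime_iff_eq hp Nat.prime_two).1 h1)
  have hnorm : ∀ b : Fˣ, b ^ p = 1 → b ≠ 1 → (b : F) * σ (b : F) ≠ 1 := by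
    intro b hbp hb1 h
    rw [S.hs] at h
    have h1 : b ^ (q + 1) = 1 := by
      apply Units.ext
      rw [Units.val_pow_eq_pow_val, pow_succ', Units.val_one]
      exact h
    have h2 := orderOf_dvd_of_pow_eq_one h1
    rw [orderOf_eq_prime (hp := ⟨hp⟩) hbp hb1] at h2
    exact hd1 h2
  have ha1 : a ≠ 1 := by
    rintro rfl
    rw [orderOf_one] at ha
    exact hp.ne_one ha.symm
  have hl := hnorm a hap ha1
  have hxp : orderOf (π (tor σ a)) = p := by
    have := Fact.mk hp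
    refine orderOf_eq_prime ?_ (S.tor_ne hl)
    rw [← map_pow, ← map_pow, hap, map_one, map_one]
  refine nb_of_data S.data ?_ hp (S.tor_mem' a) hxp ?_ ?_ hpm
  · obtain ⟨r, hr, Q, hQ⟩ := S.exists_sylow
    rw [← hQ]
    obtain ⟨k, hk⟩ := IsPGroup.iff_card.1 Q.isPGroup'
    intro h
    have hk0 : k ≠ 0 := by
      rintro rfl
      rw [pow_zero, Subgroup.card_eq_one, hQ] at hk
      exact S.U_ne_bot hk
    have h1 : r ^ (k + 1) ∣ Nat.card (Cfsg.PSU 3 F q) := by
      refine dvd_trans ?_ h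
      rw [hk, ← pow_mul]
      exact pow_dvd_pow r (by omega)
    have h2 : r ^ k * r ∣ Nat.card (Q : Subgroup (Cfsg.PSU 3 F q)) * (Q : Subgroup (Cfsg.PSU 3 F q)).index := by
      rw [Subgroup.card_mul_index, ← pow_succ]
      exact h1
    rw [hk] at h2
    exact Q.not_dvd_index (Nat.dvd_of_mul_dvd_mul_left (pow_pos hr.out.pos k) h2)
  · rintro _ ⟨i, rfl⟩ hy1 u hu hyu
    have e : π (tor σ a) ^ i = π (tor σ (a ^ i)) := by rw [map_zpow, map_zpow]
    change π (tor σ a) ^ i ≠ 1 at hy1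
    change π (tor σ a) ^ i * u = u * π (tor σ a) ^ i at hyu
    rw [e] at hy1 hyu
    refine S.reg (hnorm (a ^ i) ?_ ?_) u hu hyu
    · rw [← zpow_natCast, ← zpow_mul, mul_comm, zpow_mul, zpow_natCast, hap, one_zpow]
    · intro h
      apply hy1
      rw [h, map_one, map_one]
  · rw [S.card_U]
    exact Nat.Coprime.pow_right 3 hmq

/-- the case `m = 3` -/
theorem nb_psu3_three (hF : Fintype.card F = q ^ 2) (hq : 2 < q) {p : ℕ} (hp : p.Prime) (hp2 : p ≠ 2)
    (hd : p ∣ q - 1) (h3 : 3 ∣ q + 1) : NB p 3 (Cfsg.PSU 3 F q) := by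
  refine nb_psu3 hF hq hp hp2 hd ?_ ?_
  · rw [Nat.Prime.coprime_iff_not_dvd Nat.prime_three]
    omega
  · intro h
    have h4 : p = 3 := (Nat.prime_dvd_prime_iff_eq hp Nat.prime_three).1 h
    subst h4
    omega

end PSU

end Cfsg.Agent.H497.RIM
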