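import Cfsg.Agent.H710.Cuspidal
import Cfsg.Agent.CharDeep.DegreeBound

/-!
# Cuspidal characters over a central linear character, rank one (helper497, S4816)

`G` with `RankOneAbstract.Data H U w`, `K` central with `K ∩ U = 1`, `l : K →* ℂˣ`; if `|U| ^ 2` does not divide `|G : K|`
then some irreducible character over `l` has no fixed vectors under `U` (`exists_cusp`), so it vanishes on the elements
of `H` without fixed points on `U` and its degree is divisible by the primes which are orders of such elements.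
-/

set_option autoImplicit false
set_option linter.unusedSectionVars false

namespace Cfsg.Agent.H497.RIM

open Cfsg Cfsg.Agent.Characters.Core Cfsg.Agent.Characters.DegreeBounds Module
open Cfsg.Agent.H710.Cuspidal
open Cfsg.Agent.LieRecognition.RankOneAbstract (Data)
open scoped ComplexConjugate

variable {G : Type*} [Group G]

section rep

variable {V : Type*} [AddCommGroup V] [Module ℂ V] [FiniteDimensional ℂ V] (ρ : Representation ℂ G V)

theorem trace_Z (U : Subgroup G) [Fintype U] :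
    ∑ u : U, ρ.character u = (Nat.card U : ℂ) * (finrank ℂ (LinearMap.range (Z ρ U)) : ℂ) := by
  have hc : (Nat.card U : ℂ) ≠ 0 := card_ne_zero_complex
  set P : Module.End ℂ V := (Nat.card U : ℂ)⁻¹ • Z ρ U with hP
  have h1 : P * P = P := by
    rw [hP, smul_mul_smul_comm, Z_mul_Z, smul_smul]
    congr 1
    field_simp
  have h7 : (Nat.card U : ℂ) • P = Z ρ U := by
    rw [hP, smul_smul, mul_inv_cancel₀ hc, one_smul]
  have h2 : LinearMap.trace ℂ V (Z ρ U) = ∑ u : U, ρ.character u := by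
    rw [Z, map_sum]
    rfl
  have h3 : IsIdempotentElem P := h1
  have h4 := LinearMap.IsProj.trace (LinearMap.IsIdempotentElem.isProj_range P h3)
  have h5 : LinearMap.range P = LinearMap.range (Z ρ U) := by
    rw [← h7, LinearMap.range_smul _ _ hc]
  rw [← h2, ← h7, map_smul, h4, h5, smul_eq_mul, h7]

/-- **The degree is at most `|U|` times the dimension of the fixed space.** -/
theorem finrank_le [Finite G] [ρ.IsIrreducible] {H U : Subgroup G} {w : G} [Fintype U] (D : Data H U w)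
    (hZ : Z ρ U ≠ 0) : finrank ℂ V ≤ Nat.card U * finrank ℂ (LinearMap.range (Z ρ U)) := by
  classical
  set W := LinearMap.range (Z ρ U) with hW
  have hWH : ∀ h ∈ H, ∀ x ∈ W, ρ h x ∈ W := by
    rintro h hh _ ⟨y, rfl⟩
    have hn : ∀ u, u ∈ U ↔ h * u * h⁻¹ ∈ U := by
      intro u
      refine ⟨D.norm h hh u, fun hu => ?_⟩
      have := D.norm h⁻¹ (H.inv_mem hh) _ hu
      have h2 : h⁻¹ * (h * u * h⁻¹) * h⁻¹⁻¹ = u := by group
      rwa [h2] at this
    rw [← Module.End.mul_apply, rho_comm_Z ρ U hn]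
    exact ⟨ρ h y, rfl⟩
  let A : U → W →ₗ[ℂ] V := fun u => if u = 1 then W.subtype else (ρ ((u : G) * w)).comp W.subtype
  let Φ : (U → W) →ₗ[ℂ] V := ∑ u : U, (A u).comp (LinearMap.proj u)
  set R := LinearMap.range Φ with hR
  have hA : ∀ (u : U) (x : W), A u x ∈ R := by
    intro u x
    refine ⟨Pi.single u x, ?_⟩
    simp only [Φ, LinearMap.coe_sum, Finset.sum_apply, LinearMap.comp_apply, LinearMap.proj_apply]
    rw [Finset.sum_eq_single u]
    · rw [Pi.single_eq_same]
    · intro v _ hv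
      rw [Pi.single_eq_of_ne hv, map_zero]
    · intro h
      exact absurd (Finset.mem_univ _) h
  have hWR : ∀ x ∈ W, x ∈ R := by
    intro x hx
    have := hA 1 ⟨x, hx⟩
    simpa [A] using this
  have hne : ∀ u : U, u ≠ 1 → ∀ x ∈ W, ρ ((u : G) * w) x ∈ R := by
    intro u hu x hx
    have := hA u ⟨x, hx⟩
    simpa [A, hu] using this
  have hUR : ∀ u : U, ∀ x ∈ W, ρ ((u : G) * w) x ∈ R := by
    intro u x hx
    by_cases hu : u = 1
    · subst hu
      have h1 : Z ρ U (ρ w x) = ∑ v : U, ρ ((v : G) * w) x := by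
        rw [Z, LinearMap.sum_apply]
        refine Finset.sum_congr rfl fun v _ => ?_
        rw [map_mul]
        rfl
      rw [← Finset.add_sum_erase Finset.univ (fun v : U => ρ ((v : G) * w) x) (Finset.mem_univ (1 : U))] at h1
      have h2 : ρ (((1 : U) : G) * w) x = Z ρ U (ρ w x) - ∑ v ∈ Finset.univ.erase (1 : U), ρ ((v : G) * w) x := by
        rw [h1, add_sub_cancel_right]
      rw [h2]
      refine R.sub_mem (hWR _ ⟨_, rfl⟩) (R.sum_mem fun v hv => hne v (Finset.ne_of_mem_erase hv) x hx)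
    · exact hne u hu x hx
  have htop : Submodule.span ℂ {y : V | ∃ g : G, ∃ x ∈ W, y = ρ g x} = ⊤ := by
    apply eq_top_of_stable ρ
    · intro g y hy
      induction hy using Submodule.span_induction with
      | mem y hy =>
        obtain ⟨k, x, hx, rfl⟩ := hy
        refine Submodule.subset_span ⟨g * k, x, hx, ?_⟩
        rw [map_mul]
        rfl
      | zero => rw [map_zero]; exact Submodule.zero_mem _
      | add x y _ _ hx hy => rw [map_add]; exact Submodule.add_mem _ hx hy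
      | smul a x _ hx => rw [map_smul]; exact Submodule.smul_mem _ _ hx
    · intro h
      apply hZ
      rw [← LinearMap.range_eq_bot, eq_bot_iff]
      intro x hx
      rw [← h]
      exact Submodule.subset_span ⟨1, x, hx, by rw [map_one]; rfl⟩
  have hRtop : R = ⊤ := by
    rw [eq_top_iff, ← htop, Submodule.span_le]
    rintro _ ⟨g, x, hx, rfl⟩
    by_cases hg : g ∈ H
    · exact hWR _ (hWH g hg x hx)
    · obtain ⟨s, hs, h⟩ := D.bruhat g hg
      have h1 : g = (s * w) * ((s * w)⁻¹ * g) := by group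
      have h2 : ρ g x = ρ (s * w) (ρ ((s * w)⁻¹ * g) x) := by
        conv_lhs => rw [h1, map_mul]
        rfl
      rw [h2]
      exact hUR ⟨s, hs⟩ _ (hWH _ h x hx)
  have h1 : finrank ℂ (LinearMap.range Φ) ≤ finrank ℂ (U → W) := LinearMap.finrank_range_le Φ
  rw [← hR, hRtop, finrank_top, Module.finrank_pi_fintype, Finset.sum_const, Finset.card_univ,
    ← Nat.card_eq_fintype_card, smul_eq_mul] at h1
  exact h1

end rep

section count

variable [Finite G]

/-- column orthogonality over a central linear character -/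
theorem sum_over [Fintype (IrrCharacter G)] (K : Subgroup G) [Fintype K] (hK : K ≤ Subgroup.center G) (l : K →* ℂˣ)
    [DecidablePred fun χ : IrrCharacter G => ∀ z : K, (χ : G → ℂ) z = (χ : G → ℂ) 1 * l z] (g : G) :
    (Nat.card K : ℂ) * ∑ χ ∈ Finset.univ.filter (fun χ : IrrCharacter G => ∀ z : K, (χ : G → ℂ) z = (χ : G → ℂ) 1 * l z),
      (χ : G → ℂ) 1 * (χ : G → ℂ) g =
    ∑ z : K, ((l z)⁻¹ : ℂˣ) * ((Nat.card G : ℂ) * Cfsg.Agent.CharDeep.PowerDegrees.delta G (g * z)) := by
  have := Fintype.ofFinite G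
  have hc : (Nat.card G : ℂ) ≠ 0 := card_ne_zero_complex
  have h1 : ∀ g : G, ∑ χ : IrrCharacter G, (χ : G → ℂ) 1 * (χ : G → ℂ) g =
      (Nat.card G : ℂ) * Cfsg.Agent.CharDeep.PowerDegrees.delta G g := by
    intro g
    rw [Cfsg.Agent.CharDeep.PowerDegrees.delta_eq_sum, Finset.sum_apply, Finset.mul_sum]
    refine Finset.sum_congr rfl fun χ _ => ?_
    rw [Pi.smul_apply, smul_eq_mul]
    field_simp
  rw [Finset.sum_congr rfl fun (z : K) _ => by rw [← h1 (g * z)]]
  rw [Finset.sum_congr rfl fun (z : K) _ => Finset.mul_sum _ _ _, Finset.sum_comm, Finset.sum_filter,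
    Finset.mul_sum]
  refine Finset.sum_congr rfl fun χ _ => ?_
  have hχ1 : (χ : G → ℂ) 1 ≠ 0 := isIrr_apply_one_ne_zero χ.2
  choose w hw1 hw using fun z : K => Cfsg.Agent.CharDeep.DegreeBound.exists_omega χ.2 (hK z.2)
  have hwz : ∀ z : K, (χ : G → ℂ) z = w z * (χ : G → ℂ) 1 := by
    intro z
    have := hw z 1
    rwa [one_mul] at this
  have hwm : ∀ y z : K, w (y * z) = w y * w z := by
    intro y z
    have h2 : (χ : G → ℂ) ((y : G) * z) = w z * (χ : G → ℂ) y := hw z y
    rw [hwz y] at h2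
    have h3 := hwz (y * z)
    rw [Subgroup.coe_mul, h2] at h3
    have h4 : w (y * z) * (χ : G → ℂ) 1 = w y * w z * (χ : G → ℂ) 1 := by linear_combination -h3
    exact mul_right_cancel₀ hχ1 h4
  rw [Finset.sum_congr rfl (g := fun z : K => ((((l z)⁻¹ : ℂˣ) : ℂ) * w z) * ((χ : G → ℂ) 1 * (χ : G → ℂ) g))
    (fun z _ => by rw [hw z g]; ring), ← Finset.sum_mul]
  split_ifs with h
  · congr 1
    have h2 : ∀ z : K, (((l z)⁻¹ : ℂˣ) : ℂ) * w z = 1 := by
      intro z
      have h3 := h z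
      rw [hwz z, mul_comm] at h3
      have h4 := mul_left_cancel₀ hχ1 h3
      rw [h4, ← Units.val_mul, inv_mul_cancel, Units.val_one]
    rw [Finset.sum_congr rfl fun z _ => h2 z, Finset.sum_const, Finset.card_univ, nsmul_eq_mul, mul_one,
      Nat.card_eq_fintype_card]
  · rw [mul_zero]
    symm
    push Not at h
    obtain ⟨y, hy⟩ := h
    have hy' : (((l y)⁻¹ : ℂˣ) : ℂ) * w y ≠ 1 := by
      intro h2
      apply hy
      rw [hwz y, mul_comm]
      congr 1
      calc w y = ((l y) : ℂ) * ((((l y)⁻¹ : ℂˣ) : ℂ) * w y) := by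
            rw [← mul_assoc, ← Units.val_mul, mul_inv_cancel, Units.val_one, one_mul]
        _ = _ := by rw [h2, mul_one]
    have h2 : ∑ z : K, (((l z)⁻¹ : ℂˣ) : ℂ) * w z =
        ((((l y)⁻¹ : ℂˣ) : ℂ) * w y) * ∑ z : K, (((l z)⁻¹ : ℂˣ) : ℂ) * w z := by
      conv_lhs => rw [← Fintype.sum_equiv (Equiv.mulLeft y)
        (fun z => (((l (y * z))⁻¹ : ℂˣ) : ℂ) * w (y * z)) (fun z => (((l z)⁻¹ : ℂˣ) : ℂ) * w z) (fun z => rfl)]
      rw [Finset.mul_sum]
      refine Finset.sum_congr rfl fun z _ => ?_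
      rw [map_mul, mul_inv, Units.val_mul, hwm]
      ring
    have h3 : (1 - (((l y)⁻¹ : ℂˣ) : ℂ) * w y) * ∑ z : K, (((l z)⁻¹ : ℂˣ) : ℂ) * w z = 0 := by
      linear_combination h2
    have h4 : (1 - (((l y)⁻¹ : ℂˣ) : ℂ) * w y) ≠ 0 := fun h => hy' (by linear_combination -h)
    rw [(mul_eq_zero.1 h3).resolve_left h4, zero_mul]

/-- **Existence of cuspidal characters over `l`.** -/
theorem exists_cusp {H U : Subgroup G} {w : G} [Fintype U] (D : Data H U w) (K : Subgroup G)
    (hK : K ≤ Subgroup.center G) (hKU : ∀ u ∈ U, u ∈ K → u = 1) (l : K →* ℂˣ)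
    (hnd : ¬ Nat.card U ^ 2 ∣ K.index) :
    ∃ χ : IrrCharacter G, (∀ z : K, (χ : G → ℂ) z = (χ : G → ℂ) 1 * l z) ∧ ∑ u : U, (χ : G → ℂ) u = 0 := by
  classical
  have := Fintype.ofFinite G
  have := Fintype.ofFinite K
  have := finite_irr (G := G)
  have := Fintype.ofFinite (IrrCharacter G)
  by_contra hcon
  push Not at hcon
  have hcK : (Nat.card K : ℂ) ≠ 0 := card_ne_zero_complex
  have hGK : (Nat.card G : ℂ) = (Nat.card K : ℂ) * (K.index : ℂ) := by
    exact_mod_cast (Subgroup.card_mul_index K).symm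
  choose m hm using fun χ : IrrCharacter G => exists_mult U χ.2
  set d : IrrCharacter G → ℕ := fun χ => charDegree (χ : G → ℂ) with hd
  have hd1 : ∀ χ : IrrCharacter G, (χ : G → ℂ) 1 = (d χ : ℂ) := fun χ =>
    Cfsg.Agent.Blocks.Basic.irr_one_eq_charDegree χ.2
  set X : Finset (IrrCharacter G) :=
    Finset.univ.filter (fun χ : IrrCharacter G => ∀ z : K, (χ : G → ℂ) z = (χ : G → ℂ) 1 * l z) with hX
  have hle : ∀ χ ∈ X, d χ ≤ Nat.card U * m χ := by
    intro χ hχX
    have hχl : ∀ z : K, (χ : G → ℂ) z = (χ : G → ℂ) 1 * l z := by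
      rw [hX, Finset.mem_filter] at hχX
      exact hχX.2
    obtain ⟨n, ρ, hρ, h⟩ := χ.2
    have h0 : Z ρ U ≠ 0 := by
      intro hZ
      apply hcon χ hχl
      rw [← h, trace_Z, hZ, LinearMap.range_zero, finrank_bot, Nat.cast_zero, mul_zero]
    have h1 := finrank_le ρ D h0
    have h2 : (d χ : ℂ) = (finrank ℂ (Fin n → ℂ) : ℂ) := by
      rw [← hd1 χ, ← h, Representation.char_one]
    have h3 : d χ = finrank ℂ (Fin n → ℂ) := by exact_mod_cast h2
    have h4 : finrank ℂ (LinearMap.range (Z ρ U)) = m χ := by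
      have h5 := hm χ
      rw [← h, trace_Z] at h5
      have hc : (Nat.card U : ℂ) ≠ 0 := card_ne_zero_complex
      exact_mod_cast mul_left_cancel₀ hc h5
    rw [h3, ← h4]
    exact h1
  -- the two sums
  have s0 : ∀ u : G, u ∈ U → ∑ χ ∈ X, (χ : G → ℂ) 1 * (χ : G → ℂ) u = if u = 1 then (K.index : ℂ) else 0 := by
    intro u hu
    have h1 := sum_over K hK l u
    rw [← hX] at h1
    apply mul_left_cancel₀ hcK
    rw [h1]
    split_ifs with h
    · subst h
      rw [Finset.sum_eq_single (1 : K)]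
      · rw [map_one, inv_one, Units.val_one, one_mul, OneMemClass.coe_one, one_mul,
          Cfsg.Agent.CharDeep.PowerDegrees.delta_one, mul_one, hGK]
      · intro z _ hz
        rw [Cfsg.Agent.CharDeep.PowerDegrees.delta_ne, mul_zero, mul_zero]
        rw [one_mul]
        exact fun h => hz (Subtype.ext h)
      · intro h
        exact absurd (Finset.mem_univ _) h
    · rw [mul_zero]
      refine Finset.sum_eq_zero fun z _ => ?_
      rw [Cfsg.Agent.CharDeep.PowerDegrees.delta_ne, mul_zero, mul_zero]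
      intro h2
      apply h
      apply hKU u hu
      rw [eq_inv_of_mul_eq_one_left h2]
      exact K.inv_mem z.2
  have e1 : ∑ χ ∈ X, d χ * d χ = K.index := by
    have h1 := s0 1 U.one_mem
    rw [if_pos rfl] at h1
    have h2 : ((∑ χ ∈ X, d χ * d χ : ℕ) : ℂ) = (K.index : ℂ) := by
      rw [← h1]
      push_cast
      refine Finset.sum_congr rfl fun χ _ => ?_
      rw [hd1]
    exact_mod_cast h2
  have e2 : ∑ χ ∈ X, d χ * (Nat.card U * m χ) = K.index := by
    have h2 : ((∑ χ ∈ X, d χ * (Nat.card U * m χ) : ℕ) : ℂ) = (K.index : ℂ) := by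
      push_cast
      calc ∑ χ ∈ X, (d χ : ℂ) * ((Nat.card U : ℂ) * (m χ : ℂ)) =
          ∑ χ ∈ X, ∑ u : U, (χ : G → ℂ) 1 * (χ : G → ℂ) u := by
            refine Finset.sum_congr rfl fun χ _ => ?_
            rw [← Finset.mul_sum, hm χ, hd1]
        _ = ∑ u : U, ∑ χ ∈ X, (χ : G → ℂ) 1 * (χ : G → ℂ) u := Finset.sum_comm
        _ = ∑ u : U, if (u : G) = 1 then (K.index : ℂ) else 0 := Finset.sum_congr rfl fun u _ => s0 u u.2
        _ = (K.index : ℂ) := by
          rw [Finset.sum_eq_single (1 : U)]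
          · rw [if_pos (OneMemClass.coe_one _)]
          · intro u _ hu
            rw [if_neg]
            exact fun h => hu (Subtype.ext h)
          · intro h
            exact absurd (Finset.mem_univ _) h
    exact_mod_cast h2
  have e3 : ∀ χ ∈ X, d χ * d χ = d χ * (Nat.card U * m χ) := by
    apply (Finset.sum_eq_sum_iff_of_le (fun χ hχ => Nat.mul_le_mul_left _ (hle χ hχ))).1
    rw [e1, e2]
  apply hnd
  rw [← e1]
  refine Finset.dvd_sum fun χ hχ => ?_
  have h1 := e3 χ hχ
  have h2 : 0 < d χ := Cfsg.Agent.Blocks.Basic.charDegree_pos χ.2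
  have h3 := Nat.eq_of_mul_eq_mul_left h2 h1
  rw [h3, pow_two]
  exact ⟨m χ * m χ, by ring⟩

/-- the degree is divisible by the primes which are orders of elements of `H` acting fixed point freely -/
theorem exists_dvd {H U : Subgroup G} {w : G} (D : Data H U w) (K : Subgroup G)
    (hK : K ≤ Subgroup.center G) (hKU : ∀ u ∈ U, u ∈ K → u = 1) (l : K →* ℂˣ)
    (hnd : ¬ Nat.card U ^ 2 ∣ K.index) {p : ℕ} {x : G} (hx : x ∈ H) (hxp : orderOf x = p)
    (hreg : ∀ y ∈ Subgroup.zpowers x, y ≠ 1 → ∀ u ∈ U, y * u = u * y → u = 1) :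
    ∃ χ : G → ℂ, IsIrrCharacter G χ ∧ (∀ z : K, χ z = χ 1 * l z) ∧ p ∣ charDegree χ := by
  classical
  have := Fintype.ofFinite U
  have := Fintype.ofFinite (Subgroup.zpowers x)
  obtain ⟨χ, h1, h2⟩ := exists_cusp D K hK hKU l hnd
  refine ⟨χ, χ.2, h1, ?_⟩
  have h3 : ∀ y ∈ Subgroup.zpowers x, y ≠ 1 → (χ : G → ℂ) y = 0 := by
    intro y hy hy1
    obtain ⟨n, ρ, hρ, h⟩ := χ.2
    rw [← h] at h2 ⊢
    have hyH : y ∈ H := (Subgroup.zpowers_le.2 hx) hy
    refine zero_of_regular ρ U h2 (fun u => ⟨fun hu => D.norm y hyH u hu, fun hu => ?_⟩) (hreg y hy hy1)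
    have := D.norm y⁻¹ (H.inv_mem hyH) _ hu
    have h2 : y⁻¹ * (y * u * y⁻¹) * y⁻¹⁻¹ = u := by group
    rwa [h2] at this
  obtain ⟨m, hm⟩ := exists_mult (Subgroup.zpowers x) χ.2
  rw [Finset.sum_eq_single (1 : Subgroup.zpowers x)] at hm
  · rw [OneMemClass.coe_one, Cfsg.Agent.Blocks.Basic.irr_one_eq_charDegree χ.2, Nat.card_zpowers, hxp] at hm
    exact ⟨m, by exact_mod_cast hm⟩
  · intro u _ hu
    exact h3 u u.2 fun h => hu (Subtype.ext h)
  · intro h
    exact absurd (Finset.mem_univ _) h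

end count

end Cfsg.Agent.H497.RIM
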